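import Mathlib

/-! A small checking machine for linear relations between translates of a vector. -/
set_option autoImplicit false

namespace Cfsg.Agent.Cert
open Finset

def lk (c i : ℕ) : ℕ := Nat.land (Nat.shiftRight c (Nat.mul 4 i)) 15
def ent (W T k : ℕ) : ℕ := Nat.mod (Nat.shiftRight T (Nat.mul W k)) (Nat.shiftLeft 1 W)
def dig (A i : ℕ) : ℕ := Nat.land (Nat.shiftRight A (Nat.mul 12 i)) 4095
def force (x : ℕ) (f : ℕ → ℕ) : ℕ := Nat.rec (f 0) (fun m _ => f (Nat.succ m)) x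
def bind (x : ℕ) (f : ℕ → ℕ) : ℕ := Nat.rec 0 (fun m _ => f m) x
def allLt (n : ℕ) (f : ℕ → Bool) : Bool := Nat.rec true (fun k r => and (f k) r) n
def ag1 (h g y b t i : ℕ) : Bool := Nat.beq (lk h (lk g (lk y (lk b i)))) (lk t i)
def ag (h g y b t : ℕ) : Bool :=
  and (ag1 h g y b t 0) (and (ag1 h g y b t 1) (and (ag1 h g y b t 2) (and (ag1 h g y b t 3)
  (and (ag1 h g y b t 4) (and (ag1 h g y b t 5) (and (ag1 h g y b t 6) (and (ag1 h g y b t 7)
  (and (ag1 h g y b t 8) (ag1 h g y b t 9)))))))))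

structure Tabs where
  B : ℕ
  nB : ℕ
  H : ℕ
  nH : ℕ
  I : ℕ
  N : ℕ

def pt (T : Tabs) (g cg y d A : ℕ) : ℕ :=
  force (ent 60 T.B (Nat.mod (Nat.land d 511) T.nB)) fun b =>
  force (ent 84 T.H (Nat.mod (Nat.land (Nat.shiftRight d 9) 15) T.nH)) fun h =>
  force (Nat.mod (Nat.shiftRight d 13) T.N) fun i =>
  force (ent 44 T.I i) fun t =>
  force (Nat.mul (Nat.mul cg (lk y 10)) (Nat.mul (lk b 10) (lk h 16))) fun c =>
  cond (and (ag h g y b t) (Nat.ble (Nat.add (dig A i) c) 4095))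
    (Nat.succ (Nat.add A (Nat.shiftLeft c (Nat.mul 12 i)))) 0

def term (T : Tabs) (R l g cg D : ℕ) : ℕ → ℕ :=
  Nat.rec Nat.succ (fun k ih A => force (ent 44 R k) fun y => force (ent 28 D k) fun d =>
    bind (pt T g cg y d A) ih) l

def run (T : Tabs) (Rs : List (ℕ × ℕ)) (L : List (ℕ × ℕ × ℕ)) : ℕ → ℕ :=
  List.rec Nat.succ (fun x _ ih A => force (Rs.getD x.1 (0, 0)).1 fun R => force (Rs.getD x.1 (0, 0)).2 fun l =>
    force x.2.1 fun g => force (lk g 10) fun cg => bind (term T R l g cg x.2.2 A) ih) L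

def chk (p N A : ℕ) (c : ℕ → ℕ) : Bool :=
  allLt N fun i => Nat.beq (Nat.mod (dig A i) p) (Nat.mod (c i) p)

theorem force_eq (x : ℕ) (f : ℕ → ℕ) : force x f = f x := by cases x <;> rfl

theorem bind_succ {x B : ℕ} {f : ℕ → ℕ} (h : bind x f = B + 1) : ∃ m, x = m + 1 ∧ f m = B + 1 := by
  cases x with
  | zero => exact absurd h (by simp [bind])
  | succ m => exact ⟨m, rfl, h⟩

theorem allLt_spec {n : ℕ} {f : ℕ → Bool} (h : allLt n f = true) : ∀ i < n, f i = true := by
  induction n with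
  | zero => intro i hi; omega
  | succ n ih =>
    have h' : (f n && allLt n f) = true := h
    rw [Bool.and_eq_true] at h'
    intro i hi
    rcases Nat.lt_succ_iff_lt_or_eq.1 hi with h1 | rfl
    · exact ih h'.2 i h1
    · exact h'.1

theorem lk_lt (c i : ℕ) : lk c i < 16 := Nat.lt_succ_of_le Nat.and_le_right

theorem ag_spec {h g y b t : ℕ} (H : ag h g y b t = true) :
    ∀ i < 10, lk h (lk g (lk y (lk b i))) = lk t i := by
  simp only [ag, ag1, Bool.and_eq_true, Nat.beq_eq] at H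
  intro i hi
  interval_cases i <;> tauto

theorem dig_eq (A i : ℕ) : dig A i = A / 4096 ^ i % 4096 := by
  have : dig A i = (A >>> (12 * i)) &&& (2 ^ 12 - 1) := rfl
  rw [this, Nat.and_two_pow_sub_one_eq_mod, Nat.shiftRight_eq_div_pow, pow_mul]; rfl

theorem dig_add {A i c : ℕ} (h : dig A i + c ≤ 4095) (j : ℕ) :
    dig (A + c * 4096 ^ i) j = dig A j + if j = i then c else 0 := by
  simp only [dig_eq] at *
  induction i generalizing A j with
  | zero =>
    cases j with
    | zero => simp at *; omega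
    | succ j =>
      simp only [pow_zero, mul_one, Nat.div_one] at *
      rw [pow_succ', ← Nat.div_div_eq_div_mul, ← Nat.div_div_eq_div_mul,
        show (A + c) / 4096 = A / 4096 by omega]; simp
  | succ i ih =>
    cases j with
    | zero => simp [pow_succ, ← mul_assoc]
    | succ j =>
      rw [pow_succ', ← Nat.div_div_eq_div_mul] at h
      rw [pow_succ' _ j, ← Nat.div_div_eq_div_mul, ← Nat.div_div_eq_div_mul, pow_succ, ← mul_assoc,
        Nat.add_mul_div_right _ _ (by norm_num), ih j h]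
      simp

variable {V : Type*} [AddCommGroup V]

def Ext (n : ℕ) (F : (ℕ → ℕ) → V) : Prop := ∀ a a' : ℕ → ℕ, (∀ i < n, a i = a' i) → F a = F a'
def RR (F : (ℕ → ℕ) → V) (b c : ℕ) : Prop := ∀ a, F a = c • F (a ∘ lk b)
def LR (F : (ℕ → ℕ) → V) (h c : ℕ) : Prop := ∀ a, (∀ i, a i < 16) → F a = c • F (lk h ∘ a)
def rsum (R l : ℕ) (F : (ℕ → ℕ) → V) (g : ℕ → ℕ) : V :=
  ∑ k ∈ range l, lk (ent 44 R k) 10 • F (g ∘ lk (ent 44 R k))
def val (T : Tabs) (F : (ℕ → ℕ) → V) (A : ℕ) : V := ∑ i ∈ range T.N, dig A i • F (lk (ent 44 T.I i))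

structure Ok (T : Tabs) (F : (ℕ → ℕ) → V) : Prop where
  ext : Ext 10 F
  nB : 0 < T.nB
  nH : 0 < T.nH
  N : 0 < T.N
  rr : ∀ k < T.nB, RR F (ent 60 T.B k) (lk (ent 60 T.B k) 10)
  lr : ∀ k < T.nH, LR F (ent 84 T.H k) (lk (ent 84 T.H k) 16)

variable {T : Tabs} {F : (ℕ → ℕ) → V}

theorem val_zero : val T F 0 = 0 := by simp [val, dig_eq]

theorem pt_spec (hT : Ok T F) {g cg y d A A' : ℕ} (h : pt T g cg y d A = A' + 1) :
    val T F A' = val T F A + cg • lk y 10 • F (lk g ∘ lk y) := by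
  simp only [pt, force_eq] at h
  set b := ent 60 T.B _
  set h' := ent 84 T.H _
  set i := Nat.mod (Nat.shiftRight d 13) T.N
  set c := Nat.mul (Nat.mul cg _) _
  have hb : RR F b (lk b 10) := hT.rr _ (Nat.mod_lt _ hT.nB)
  have hh : LR F h' (lk h' 16) := hT.lr _ (Nat.mod_lt _ hT.nH)
  have hi : i < T.N := Nat.mod_lt _ hT.N
  rcases hc : (ag h' g y b (ent 44 T.I i) && Nat.ble (Nat.add (dig A i) c) 4095) with _ | _
  · rw [hc] at h; simp at h
  rw [hc] at h
  rw [Bool.and_eq_true] at hc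
  have h1 : A' = A + c * 4096 ^ i := by
    have : A + (c <<< (12 * i)) + 1 = A' + 1 := h
    rw [Nat.shiftLeft_eq, pow_mul] at this
    norm_num at this; omega
  have h2 : dig A i + c ≤ 4095 := Nat.le_of_ble_eq_true hc.2
  have h3 : F (lk g ∘ lk y) = lk b 10 • lk h' 16 • F (lk (ent 44 T.I i)) := by
    rw [hb, hh ((lk g ∘ lk y) ∘ lk b) (fun _ => lk_lt _ _)]
    congr 2
    exact hT.ext _ _ (ag_spec hc.1)
  rw [h1, h3, val, val]
  simp only [dig_add h2, add_smul, sum_add_distrib, ite_smul, zero_smul, sum_ite_eq', mem_range, hi,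
    if_true, smul_smul]
  congr 2
  show cg * lk y 10 * (lk b 10 * lk h' 16) = _
  ring

theorem term_spec (hT : Ok T F) {R l g cg D A A' : ℕ} (h : term T R l g cg D A = A' + 1) :
    val T F A' = val T F A + cg • rsum R l F (lk g) := by
  induction l generalizing A with
  | zero =>
    have : A + 1 = A' + 1 := h
    simp [rsum, show A' = A by omega]
  | succ l ih =>
    have h' : (force (ent 44 R l) fun y => force (ent 28 D l) fun d =>
      bind (pt T g cg y d A) (term T R l g cg D)) = A' + 1 := h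
    simp only [force_eq] at h'
    obtain ⟨m, h1, h2⟩ := bind_succ h'
    rw [ih h2, pt_spec hT h1, rsum, rsum, sum_range_succ, smul_add]; abel

theorem run_spec (hT : Ok T F) {Rs : List (ℕ × ℕ)} (hR : ∀ r ∈ Rs, ∀ g, rsum r.1 r.2 F g = 0)
    {L : List (ℕ × ℕ × ℕ)} {A A' : ℕ} (h : run T Rs L A = A' + 1) (h0 : val T F A = 0) :
    val T F A' = 0 := by
  induction L generalizing A with
  | nil =>
    have : A + 1 = A' + 1 := h
    rwa [show A' = A by omega]
  | cons x L ih =>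
    have h' : (force (Rs.getD x.1 (0, 0)).1 fun R => force (Rs.getD x.1 (0, 0)).2 fun l =>
      force x.2.1 fun g => force (lk g 10) fun cg => bind (term T R l g cg x.2.2 A) (run T Rs L)) = A' + 1 := h
    simp only [force_eq] at h'
    obtain ⟨m, h1, h2⟩ := bind_succ h'
    refine ih h2 ?_
    rw [term_spec hT h1, h0, zero_add]
    by_cases hx : x.1 < Rs.length
    · rw [List.getD_eq_getElem _ _ hx, hR _ (List.getElem_mem hx), smul_zero]
    · rw [List.getD_eq_default _ _ (by omega)]; simp [rsum]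

theorem smul_mod {p : ℕ} (hp : ∀ v : V, p • v = 0) {a b : ℕ} (h : a % p = b % p) (v : V) :
    a • v = b • v := by
  rw [← Nat.div_add_mod a p, ← Nat.div_add_mod b p, add_smul, add_smul, mul_smul, mul_smul, hp, hp, h]

theorem chk_spec {p A : ℕ} (hp : ∀ v : V, p • v = 0) {c : ℕ → ℕ} (h : chk p T.N A c = true) :
    val T F A = ∑ i ∈ range T.N, c i • F (lk (ent 44 T.I i)) :=
  sum_congr rfl fun i hi => smul_mod hp (Nat.eq_of_beq_eq_true (allLt_spec h i (mem_range.1 hi))) _

theorem final (hT : Ok T F) {p A : ℕ} (hp : ∀ v : V, p • v = 0)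
    (h : chk p T.N A (fun i => cond (Nat.beq i 0) 1 0) = true) (h0 : val T F A = 0) :
    F (lk (ent 44 T.I 0)) = 0 := by
  rw [chk_spec hp h, sum_eq_single 0] at h0
  · simpa using h0
  · intro b _ hb
    cases b with
    | zero => exact absurd rfl hb
    | succ b => simp [Nat.beq]
  · intro h; exact absurd (mem_range.2 hT.N) h

def id16 : ℕ := 0x1fedcba9876543210
theorem lk_id : ∀ i < 16, lk id16 i = i := by decide +kernel

/-- invariance check of the relation `R` under the left translation by `x` -/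
def invChk (p B nB R l x D : ℕ) : Bool :=
  Nat.beq (bind (term ⟨B, nB, id16, 1, R, l⟩ R l x 1 D 0) fun A =>
    cond (chk p l A fun i => lk (ent 44 R i) 10) 1 0) 1

theorem inv_spec {p B nB R l x D : ℕ} (hp : ∀ v : V, p • v = 0) (hE : Ext 10 F) (hB : 0 < nB) (hl : 0 < l)
    (rr : ∀ k < nB, RR F (ent 60 B k) (lk (ent 60 B k) 10)) (h : invChk p B nB R l x D = true) :
    rsum R l F (lk x) = rsum R l F id := by
  obtain ⟨A, h1, h2⟩ := bind_succ (B := 0) (Nat.eq_of_beq_eq_true h)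
  have hT : Ok ⟨B, nB, id16, 1, R, l⟩ F := ⟨hE, hB, one_pos, hl, rr, fun k hk a ha => by
    obtain rfl : k = 0 := by simpa using hk
    have e1 : ent 84 id16 0 = id16 := by decide +kernel
    have e2 : lk id16 16 = 1 := by decide +kernel
    show F a = lk (ent 84 id16 0) 16 • F (lk (ent 84 id16 0) ∘ a)
    rw [e1, e2, one_smul]
    exact hE _ _ fun i _ => (lk_id _ (ha i)).symm⟩
  have h3 := term_spec hT h1
  rw [val_zero, zero_add, one_smul] at h3
  rw [← h3]
  rcases hc : chk p l A fun i => lk (ent 44 R i) 10 with _ | _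
  · rw [hc] at h2; simp at h2
  exact chk_spec (T := ⟨B, nB, id16, 1, R, l⟩) hp hc

/-- closure check of the table of right relations -/
def bChk (p B nB Gt nG : ℕ) : Bool :=
  and (and (ag id16 id16 id16 (ent 60 B 0) id16) (Nat.beq (lk (ent 60 B 0) 10) 1)) <| allLt nB fun k =>
    or (Nat.beq k 0) <|
      and (Nat.blt (ent 12 (ent 60 B k) 4) k) <| and (Nat.blt (lk (ent 60 B k) 11) nG) <|
      and (ag id16 id16 (ent 60 B (ent 12 (ent 60 B k) 4)) (ent 44 Gt (lk (ent 60 B k) 11)) (ent 60 B k))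
        (Nat.beq (Nat.mod (lk (ent 60 B k) 10) p)
          (Nat.mod (Nat.mul (lk (ent 60 B (ent 12 (ent 60 B k) 4)) 10) (lk (ent 44 Gt (lk (ent 60 B k) 11)) 10)) p))

theorem bChk_spec {p B nB Gt nG : ℕ} (hp : ∀ v : V, p • v = 0) (hE : Ext 10 F)
    (hG : ∀ k < nG, RR F (ent 44 Gt k) (lk (ent 44 Gt k) 10)) (h : bChk p B nB Gt nG = true) :
    ∀ k < nB, RR F (ent 60 B k) (lk (ent 60 B k) 10) := by
  simp only [bChk, Bool.and_eq_true] at h
  obtain ⟨⟨h1, h2⟩, h3⟩ := h
  intro k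
  induction k using Nat.strong_induction_on with
  | _ k ih =>
  intro hk a
  have h4 := allLt_spec h3 k hk
  simp only [Bool.or_eq_true, Bool.and_eq_true, Nat.beq_eq, Nat.blt_eq] at h4 h2
  rcases h4 with rfl | ⟨h5, h6, h7, h8⟩
  · rw [h2, one_smul]
    refine hE _ _ fun i hi => ?_
    have := ag_spec h1 i hi
    simp only [lk_id _ (lk_lt _ _), lk_id i (by omega)] at this
    simp [this]
  · rw [smul_mod hp h8, ih _ h5 (by omega) a, hG _ h6]
    erw [mul_smul]
    congr 2
    refine hE _ _ fun i hi => ?_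
    have := ag_spec h7 i hi
    simp only [lk_id _ (lk_lt _ _)] at this
    simp [this]

/-- closure check of the table of left relations -/
def hChk (p H nH Gt nG : ℕ) : Bool :=
  and (and (allLt 16 fun i => Nat.beq (lk (ent 84 H 0) i) i) (Nat.beq (lk (ent 84 H 0) 16) 1)) <| allLt nH fun k =>
    or (Nat.beq k 0) <|
      and (Nat.blt (ent 12 (ent 84 H k) 6) k) <| and (Nat.blt (lk (ent 84 H k) 17) nG) <|
      and (allLt 16 fun i => Nat.beq (lk (ent 68 Gt (lk (ent 84 H k) 17)) (lk (ent 84 H (ent 12 (ent 84 H k) 6)) i))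
          (lk (ent 84 H k) i))
        (Nat.beq (Nat.mod (lk (ent 84 H k) 16) p)
          (Nat.mod (Nat.mul (lk (ent 84 H (ent 12 (ent 84 H k) 6)) 16) (lk (ent 68 Gt (lk (ent 84 H k) 17)) 16)) p))

theorem hChk_spec {p H nH Gt nG : ℕ} (hp : ∀ v : V, p • v = 0)
    (hG : ∀ k < nG, LR F (ent 68 Gt k) (lk (ent 68 Gt k) 16)) (h : hChk p H nH Gt nG = true) :
    ∀ k < nH, LR F (ent 84 H k) (lk (ent 84 H k) 16) := by
  simp only [hChk, Bool.and_eq_true] at h
  obtain ⟨⟨h1, h2⟩, h3⟩ := h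
  intro k
  induction k using Nat.strong_induction_on with
  | _ k ih =>
  intro hk a ha
  have h4 := allLt_spec h3 k hk
  simp only [Bool.or_eq_true, Bool.and_eq_true, Nat.beq_eq, Nat.blt_eq] at h4 h2
  rcases h4 with rfl | ⟨h5, h6, h7, h8⟩
  · rw [h2, one_smul]
    congr 1; funext i
    exact (Nat.eq_of_beq_eq_true (allLt_spec h1 _ (ha i))).symm
  · rw [smul_mod hp h8, ih _ h5 (by omega) a ha, hG _ h6 (lk _ ∘ a) (fun _ => lk_lt _ _)]
    erw [mul_smul]
    congr 3; funext i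
    exact Nat.eq_of_beq_eq_true (allLt_spec h7 _ (ha i))

end Cfsg.Agent.Cert
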