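import Cfsg.Agent.L.Cert1

/-! From a module for the alternating group to the functions checked in `Cert1`. -/
set_option autoImplicit false

namespace Cfsg.Agent.Cert
open Finset Equiv
open scoped commutatorElement

variable {V : Type*} [AddCommGroup V] {n : ℕ}

def IsP (a : ℕ → ℕ) (σ : Perm (Fin n)) : Prop := ∀ i : Fin n, a i = σ i

theorem IsP.uniq {a a' : ℕ → ℕ} {σ σ' : Perm (Fin n)} (h : IsP a σ) (h' : IsP a' σ')
    (e : ∀ i < n, a i = a' i) : σ = σ' :=
  Equiv.ext fun i => Fin.ext (by rw [← h, ← h', e _ i.2])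

theorem IsP.comp {a b : ℕ → ℕ} {σ β : Perm (Fin n)} (h : IsP a σ) (hb : IsP b β) : IsP (a ∘ b) (σ * β) :=
  fun i => by simp [hb i, h (β i)]

theorem IsP.of_comp {a b : ℕ → ℕ} {σ β : Perm (Fin n)} (hb : IsP b β) (h : IsP (a ∘ b) σ) :
    IsP a (σ * β⁻¹) := fun i => by
  have := h (β⁻¹ i)
  rw [Function.comp_apply, hb (β⁻¹ i)] at this
  simpa using this

open Classical in
noncomputable def toF (f : Perm (Fin n) → V) (a : ℕ → ℕ) : V :=
  if h : ∃ σ : Perm (Fin n), IsP a σ then f h.choose else 0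

variable {f : Perm (Fin n) → V}

theorem toF_of {a : ℕ → ℕ} {σ : Perm (Fin n)} (h : IsP a σ) : toF f a = f σ := by
  have h' : ∃ σ : Perm (Fin n), IsP a σ := ⟨σ, h⟩
  rw [toF, dif_pos h', h'.choose_spec.uniq h fun _ _ => rfl]

theorem toF_not {a b : ℕ → ℕ} {β : Perm (Fin n)} (h : ¬ ∃ σ : Perm (Fin n), IsP a σ) (hb : IsP b β) :
    toF f (a ∘ b) = 0 := dif_neg fun ⟨_, h'⟩ => h ⟨_, hb.of_comp h'⟩

theorem ext_toF (hn : n ≤ 10) : Ext 10 (toF f) := by
  intro a a' e
  by_cases h : ∃ σ : Perm (Fin n), IsP a σ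
  · obtain ⟨σ, h⟩ := h
    rw [toF_of h, toF_of (σ := σ) fun i => by rw [← e _ (by omega), h]]
  · rw [toF, toF, dif_neg h, dif_neg]
    rintro ⟨σ, h'⟩
    exact h ⟨σ, fun i => by rw [e _ (by omega), h']⟩

theorem rr_toF {b c : ℕ} {β : Perm (Fin n)} (hb : IsP (lk b) β) (h : ∀ σ, f σ = c • f (σ * β)) :
    RR (toF f) b c := by
  intro a
  by_cases ha : ∃ σ : Perm (Fin n), IsP a σ
  · obtain ⟨σ, ha⟩ := ha
    rw [toF_of ha, toF_of (ha.comp hb), ← h]
  · rw [toF_not ha hb, toF, dif_neg ha, smul_zero]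

def permOk (n y : ℕ) : Bool :=
  allLt n fun i => and (Nat.blt (lk y i) n) (allLt i fun j => not (Nat.beq (lk y j) (lk y i)))

theorem permOk_spec {y : ℕ} (h : permOk n y = true) : ∃ η : Perm (Fin n), IsP (lk y) η := by
  have h1 : ∀ i < n, lk y i < n ∧ ∀ j < i, lk y j ≠ lk y i := fun i hi => by
    have := allLt_spec h i hi
    simp only [Bool.and_eq_true, Nat.blt_eq] at this
    refine ⟨this.1, fun j hj e => ?_⟩
    have := allLt_spec this.2 j hj
    simp [e] at this
  let g : Fin n → Fin n := fun i => ⟨lk y i, (h1 i i.2).1⟩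
  have hg : Function.Injective g := fun i j e => by
    have e' : lk y i = lk y j := congrArg Fin.val e
    rcases lt_trichotomy i.1 j.1 with h | h | h
    · exact absurd e' ((h1 j j.2).2 _ h)
    · exact Fin.ext h
    · exact absurd e'.symm ((h1 i i.2).2 _ h)
  exact ⟨Equiv.ofBijective g hg.bijective_of_finite, fun i => rfl⟩

theorem not_solv {G : Type*} [Group G] {K : Subgroup G} (h1 : K ≠ ⊥) (h : K ≤ ⁅K, K⁆) :
    ¬ Group.IsSolvable K := by
  intro hs
  haveI := (Subgroup.nontrivial_iff_ne_bot K).2 h1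
  apply (Group.IsSolvable.commutator_lt_top_of_nontrivial K).ne
  apply Subgroup.map_injective K.subtype_injective
  rw [commutator_def, Subgroup.map_commutator, ← MonoidHom.range_eq_map, Subgroup.range_subtype]
  exact le_antisymm (Subgroup.commutator_le_self K) h

theorem solv_map {G H : Type*} [Group G] [Group H] (φ : G →* H) {x y : G}
    (h : Group.IsSolvable (Subgroup.closure ({x, y} : Set G))) :
    Group.IsSolvable (Subgroup.closure ({φ x, φ y} : Set H)) := by
  rw [← Set.image_pair, ← MonoidHom.map_closure]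
  exact Group.isSolvable_of_surjective (φ.subgroupMap_surjective _)

def wd {G : Type*} [Group G] (x y : G) (w : List Bool) : G := (w.map fun b => cond b x y).prod
def wdF (x y : ℕ) (w : List Bool) : ℕ → ℕ := List.rec id (fun b _ r => lk (cond b x y) ∘ r) w

theorem wd_mem {G : Type*} [Group G] (x y : G) (w : List Bool) :
    wd x y w ∈ Subgroup.closure ({x, y} : Set G) :=
  Subgroup.list_prod_mem _ fun z hz => by
    obtain ⟨b, -, rfl⟩ := List.mem_map.1 hz
    cases b <;> exact Subgroup.subset_closure (by simp)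

theorem wdF_isP {x y : ℕ} {ξ η : Perm (Fin n)} (hx : IsP (lk x) ξ) (hy : IsP (lk y) η) (w : List Bool) :
    IsP (wdF x y w) (wd ξ η w) := by
  induction w with
  | nil => intro i; rfl
  | cons b w ih =>
    have : IsP (lk (cond b x y)) (cond b ξ η) := by cases b <;> assumption
    exact this.comp ih

def xChk (n x y : ℕ) (a b c d : List Bool) : Bool :=
  and (permOk n x) <| and (permOk n y) <| and (not (Nat.beq (lk x 0) 0)) <|
    and (allLt n fun i => Nat.beq (lk x (wdF x y b (wdF x y a i))) (wdF x y a (wdF x y b i)))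
      (allLt n fun i => Nat.beq (lk y (wdF x y d (wdF x y c i))) (wdF x y c (wdF x y d i)))

/-- `x`, `y` are codes of even permutations generating a non-solvable group -/
def NS (n x y : ℕ) : Prop := ∃ ξ η : Perm (Fin n), ξ ∈ alternatingGroup (Fin n) ∧
  η ∈ alternatingGroup (Fin n) ∧ IsP (lk x) ξ ∧ IsP (lk y) η ∧
    ¬ Group.IsSolvable (Subgroup.closure ({ξ, η} : Set (Perm (Fin n))))

theorem xChk_spec [NeZero n] {x y : ℕ} {a b c d : List Bool} (h : xChk n x y a b c d = true) : NS n x y := by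
  simp only [xChk, Bool.and_eq_true] at h
  obtain ⟨h1, h2, h3, h4, h5⟩ := h
  obtain ⟨ξ, hξ⟩ := permOk_spec h1
  obtain ⟨η, hη⟩ := permOk_spec h2
  have w := wdF_isP hξ hη
  have key : ∀ {z : ℕ} {ζ : Perm (Fin n)} {a b : List Bool}, IsP (lk z) ζ →
      (allLt n fun i => Nat.beq (lk z (wdF x y b (wdF x y a i))) (wdF x y a (wdF x y b i))) = true →
      ζ = ⁅wd ξ η a, wd ξ η b⁆ := fun {z ζ a b} hz h => by
    have := (hz.comp ((w b).comp (w a))).uniq ((w a).comp (w b))
      fun i hi => Nat.eq_of_beq_eq_true (allLt_spec h i hi)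
    rw [commutatorElement_def, ← this]; group
  have e1 := key hξ h4
  have e2 := key hη h5
  have ev : ∀ s t : Perm (Fin n), ⁅s, t⁆ ∈ alternatingGroup (Fin n) := fun s t => by
    rw [Perm.mem_alternatingGroup, map_commutatorElement, commutatorElement_eq_one_iff_mul_comm, mul_comm]
  refine ⟨ξ, η, e1 ▸ ev _ _, e2 ▸ ev _ _, hξ, hη, not_solv ?_ ?_⟩
  · intro hb
    have : ξ = 1 := by
      rw [← Subgroup.mem_bot, ← hb]; exact Subgroup.subset_closure (by simp)
    have h0 := hξ 0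
    simp [this] at h0
    simp [h0] at h3
  · rw [Subgroup.closure_le]
    rintro z (rfl | rfl)
    · rw [SetLike.mem_coe]; nth_rewrite 3 [e1]
      exact Subgroup.commutator_mem_commutator (wd_mem _ _ _) (wd_mem _ _ _)
    · rw [SetLike.mem_coe]; nth_rewrite 3 [e2]
      exact Subgroup.commutator_mem_commutator (wd_mem _ _ _) (wd_mem _ _ _)

/-- An action of the even permutations (odd permutations act as zero). -/
structure Act (act : Perm (Fin n) → V →+ V) : Prop where
  one : ∀ v, act 1 v = v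
  mulr : ∀ σ, ∀ β ∈ alternatingGroup (Fin n), ∀ v, act (σ * β) v = act σ (act β v)
  mull : ∀ β ∈ alternatingGroup (Fin n), ∀ σ, ∀ v, act (β * σ) v = act β (act σ v)
  odd : ∀ σ ∉ alternatingGroup (Fin n), ∀ v, act σ v = 0
  nofix : ∀ ξ ∈ alternatingGroup (Fin n), ∀ η ∈ alternatingGroup (Fin n),
    ¬ Group.IsSolvable (Subgroup.closure ({ξ, η} : Set (Perm (Fin n)))) →
    ∀ v, act ξ v = v → act η v = v → v = 0

variable {act : Perm (Fin n) → V →+ V}

def relChk (p n B nB R l x y D E : ℕ) : Bool :=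
  and (Nat.blt 0 l) <| and (allLt l fun k => permOk n (ent 44 R k)) <|
    and (invChk p B nB R l x D) (invChk p B nB R l y E)

theorem rel_of (hA : Act act) (hn : n ≤ 10) {p B nB R l x y D E : ℕ} (hp : ∀ v : V, p • v = 0)
    (hf : ∀ β ∈ alternatingGroup (Fin n), ∀ σ, f (β * σ) = act β (f σ)) (hB : 0 < nB)
    (rr : ∀ k < nB, RR (toF f) (ent 60 B k) (lk (ent 60 B k) 10)) (hx : NS n x y)
    (h : relChk p n B nB R l x y D E = true) (g : ℕ → ℕ) : rsum R l (toF f) g = 0 := by
  simp only [relChk, Bool.and_eq_true, Nat.blt_eq] at h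
  obtain ⟨hl, h1, h2, h3⟩ := h
  have hy : ∀ k ∈ range l, ∃ η : Perm (Fin n), IsP (lk (ent 44 R k)) η := fun k hk =>
    permOk_spec (allLt_spec h1 k (mem_range.1 hk))
  by_cases hg : ∃ γ : Perm (Fin n), IsP g γ
  swap
  · refine sum_eq_zero fun k hk => ?_
    obtain ⟨η, hη⟩ := hy k hk
    rw [toF_not hg hη, smul_zero]
  obtain ⟨γ, hγ⟩ := hg
  obtain ⟨ξ, η, m1, m2, p1, p2, ns⟩ := hx
  have hE : Ext 10 fun a => toF f (g ∘ a) := fun a a' e => ext_toF hn _ _ fun i hi => by simp [e i hi]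
  have key : ∀ {z D : ℕ} {ζ : Perm (Fin n)}, ζ ∈ alternatingGroup (Fin n) → IsP (lk z) ζ →
      invChk p B nB R l z D = true → act (γ * ζ * γ⁻¹) (rsum R l (toF f) g) = rsum R l (toF f) g := by
    intro z D ζ m hz h
    have := inv_spec hp hE hB hl (fun k hk a => rr k hk (g ∘ a)) h
    refine Eq.trans ?_ this
    rw [rsum, rsum, map_sum]
    refine sum_congr rfl fun k hk => ?_
    obtain ⟨η, hη⟩ := hy k hk
    rw [map_nsmul, toF_of (hγ.comp hη), toF_of (hγ.comp (hz.comp hη)),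
      ← hf _ ((alternatingGroup.normal).conj_mem _ m γ)]
    congr 2; group
  refine hA.nofix _ ((alternatingGroup.normal).conj_mem _ m1 γ) _ ((alternatingGroup.normal).conj_mem _ m2 γ)
    (fun hs => ns ?_) _ (key m1 p1 h2) (key m2 p2 h3)
  have := solv_map (MulAut.conj γ⁻¹).toMonoidHom hs
  have e : ∀ z : Perm (Fin n), (MulAut.conj γ⁻¹).toMonoidHom (γ * z * γ⁻¹) = z := fun z => by
    simp [mul_assoc]
  rwa [e, e] at this

def mkf (act : Perm (Fin n) → V →+ V) (τ : Perm (Fin n)) (α : ℕ) (w : V) (σ : Perm (Fin n)) : V :=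
  act σ w + α • act (σ * τ) w

variable {τ β : Perm (Fin n)} {α c : ℕ} {w : V}

theorem mkf_left (hA : Act act) : ∀ β ∈ alternatingGroup (Fin n), ∀ σ,
    mkf act τ α w (β * σ) = act β (mkf act τ α w σ) := fun β hβ σ => by
  simp only [mkf, map_add, map_nsmul, mul_assoc, hA.mull β hβ]

theorem mkf_one (hA : Act act) (h : τ ∉ alternatingGroup (Fin n)) : mkf act τ α w 1 = w := by
  simp [mkf, hA.one, hA.odd τ h]

theorem gen_even (hA : Act act) (hβ : β ∈ alternatingGroup (Fin n)) (h1 : w = c • act β w)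
    (h2 : w = c • act (τ⁻¹ * β * τ) w) (σ : Perm (Fin n)) :
    mkf act τ α w σ = c • mkf act τ α w (σ * β) := by
  have m : τ⁻¹ * β * τ ∈ alternatingGroup (Fin n) := by
    simpa using (alternatingGroup.normal).conj_mem _ hβ τ⁻¹
  rw [mkf, mkf, show σ * β * τ = σ * τ * (τ⁻¹ * β * τ) by group, hA.mulr _ _ hβ, hA.mulr _ _ m, smul_add,
    smul_comm c α, ← map_nsmul (act σ) c, ← map_nsmul (act (σ * τ)) c, ← h1, ← h2]

theorem gen_odd (hA : Act act) (hβ : β * τ ∈ alternatingGroup (Fin n))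
    (m : τ⁻¹ * β ∈ alternatingGroup (Fin n)) (h1 : w = (c * α) • act (β * τ) w)
    (h2 : α • w = c • act (τ⁻¹ * β) w) (σ : Perm (Fin n)) :
    mkf act τ α w σ = c • mkf act τ α w (σ * β) := by
  rw [mkf, mkf, mul_assoc σ β, hA.mulr _ _ hβ, show σ * β = σ * τ * (τ⁻¹ * β) by group, hA.mulr _ _ m,
    smul_add, smul_smul, ← map_nsmul _ c, ← map_nsmul _ (c * α), ← h1, ← h2, map_nsmul, add_comm]

def itr (S : V →+ V) (l : List ℕ) (v : V) : V := l.foldl (fun v a => S v - a • v) v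

theorem exists_eig (S : V →+ V) (W : V → Prop) (hW : ∀ v, W v → ∀ a : ℕ, W (S v - a • v)) (l : List ℕ)
    {v : V} (hv : W v) (h0 : v ≠ 0) (h : itr S l v = 0) : ∃ w, W w ∧ w ≠ 0 ∧ ∃ a ∈ l, S w = a • w := by
  induction l generalizing v with
  | nil => exact absurd h h0
  | cons a l ih =>
    by_cases e : S v - a • v = 0
    · exact ⟨v, hv, h0, a, by simp, sub_eq_zero.1 e⟩
    · obtain ⟨w, h1, h2, b, h3, h4⟩ := ih (hW v hv a) e h
      exact ⟨w, h1, h2, b, by simp [h3], h4⟩

def Fix (act : Perm (Fin n) → V →+ V) (L : List (Perm (Fin n))) (v : V) : Prop := ∀ x ∈ L, act x v = v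

def eqP (σ τ : Perm (Fin n)) : Bool := (List.finRange n).all fun i => Nat.beq (σ i) (τ i)

theorem eqP_spec {σ τ : Perm (Fin n)} (h : eqP σ τ = true) : σ = τ :=
  Equiv.ext fun i => Fin.ext (Nat.eq_of_beq_eq_true (List.all_eq_true.1 h i (List.mem_finRange i)))

def wB (L : List (Perm (Fin n))) (s x : Perm (Fin n)) : Bool :=
  (1 :: L).any fun y => (1 :: L).any fun z => (1 :: L).any fun y' => (1 :: L).any fun z' =>
    eqP x (s * y * z * y' * z')

theorem Fix.prod (hA : Act act) {L : List (Perm (Fin n))} (hL : ∀ x ∈ L, x ∈ alternatingGroup (Fin n))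
    {v : V} (h : Fix act L v) {s x : Perm (Fin n)}
    (e : wB L s x = true) : act x v = act s v := by
  simp only [wB, List.any_eq_true] at e
  obtain ⟨y, hy, z, hz, y', hy', z', hz', e⟩ := e
  rw [eqP_spec e]
  have k : ∀ y ∈ 1 :: L, ∀ s, act (s * y) v = act s v := fun y hy s => by
    rcases List.mem_cons.1 hy with rfl | hy
    · rw [mul_one]
    · rw [hA.mulr _ _ (hL y hy), h y hy]
  rw [k _ hz', k _ hy', k _ hz, k _ hy]

theorem Fix.step (hA : Act act) {L : List (Perm (Fin n))} (hL : ∀ x ∈ L, x ∈ alternatingGroup (Fin n))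
    {s : Perm (Fin n)} (e : (L.all fun x => wB L s (x * s)) = true) (v : V) (h : Fix act L v) (a : ℕ) : Fix act L (act s v - a • v) := by
  intro x hx
  rw [map_sub, map_nsmul, h x hx, ← hA.mull _ (hL x hx), h.prod hA hL (List.all_eq_true.1 e x hx)]

/-- the trivial relation -/
theorem rel_triv {p R : ℕ} (hp : ∀ v : V, p • v = 0) {F : (ℕ → ℕ) → V} (hE : Ext 10 F)
    (h : (∀ i < 10, lk (ent 44 R 0) i = lk (ent 44 R 1) i) ∧ lk (ent 44 R 0) 10 + lk (ent 44 R 1) 10 = p)
    (g : ℕ → ℕ) : rsum R 2 F g = 0 := by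
  rw [rsum, sum_range_succ, sum_range_one,
    hE (g ∘ lk (ent 44 R 0)) (g ∘ lk (ent 44 R 1)) fun i hi => by simp [h.1 i hi], ← add_smul, h.2, hp]

end Cfsg.Agent.Cert
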