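import Cfsg.Agent.L.Cert2

/-! Certificates and their use for the primes two and five. -/
set_option autoImplicit false

namespace Cfsg.Agent.Cert
open Finset Equiv

variable {V : Type*} [AddCommGroup V] {n : ℕ}

inductive Reach (T : Tabs) (Rs : List (ℕ × ℕ)) : ℕ → Prop
  | zero : Reach T Rs 0
  | step {A B : ℕ} (L : List (ℕ × ℕ × ℕ)) : Reach T Rs A → Nat.beq (run T Rs L A) (Nat.succ B) = true → Reach T Rs B

def RelOk (p n B nB : ℕ) (r : ℕ × ℕ) : Prop :=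
  (r.2 = 2 ∧ (∀ i < 10, lk (ent 44 r.1 0) i = lk (ent 44 r.1 1) i) ∧ lk (ent 44 r.1 0) 10 + lk (ent 44 r.1 1) 10 = p) ∨
    ∃ x y D E, NS n x y ∧ relChk p n B nB r.1 r.2 x y D E = true

def CertOk (p n Gt nG Gh nGh : ℕ) : Prop := ∃ (T : Tabs) (Rs : List (ℕ × ℕ)) (A : ℕ),
  bChk p T.B T.nB Gt nG = true ∧ hChk p T.H T.nH Gh nGh = true ∧
  (0 < T.nB ∧ 0 < T.nH ∧ 0 < T.N ∧ ∀ i < 10, lk (ent 44 T.I 0) i = i) ∧
  (∀ r ∈ Rs, RelOk p n T.B T.nB r) ∧ Reach T Rs A ∧ chk p T.N A (fun i => cond (Nat.beq i 0) 1 0) = true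

structure Sub (F0 F : (ℕ → ℕ) → V) : Prop where
  ext : Ext 10 F
  rr : ∀ b c, RR F0 b c → RR F b c
  rel : ∀ R l, (∀ g, rsum R l F0 g = 0) → ∀ g, rsum R l F g = 0

variable {act : Perm (Fin n) → V →+ V}

theorem cert_main (hA : Act act) (hn : n ≤ 10) {p Gt nG Gh nGh : ℕ} (hC : CertOk p n Gt nG Gh nGh)
    (hp : ∀ v : V, p • v = 0) {f : Perm (Fin n) → V}
    (hf : ∀ β ∈ alternatingGroup (Fin n), ∀ σ, f (β * σ) = act β (f σ))
    (hG : ∀ k < nG, RR (toF f) (ent 44 Gt k) (lk (ent 44 Gt k) 10)) {F : (ℕ → ℕ) → V} (hS : Sub (toF f) F)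
    (hH : ∀ k < nGh, LR F (ent 68 Gh k) (lk (ent 68 Gh k) 16)) : F id = 0 := by
  obtain ⟨T, Rs, A, h1, h2, ⟨h3, h4, h5, h6⟩, h7, h8, h9⟩ := hC
  have rr := bChk_spec hp (ext_toF hn) hG h1
  have hT : Ok T F := ⟨hS.ext, h3, h4, h5, fun k hk => hS.rr _ _ (rr k hk), hChk_spec hp hH h2⟩
  have hR : ∀ r ∈ Rs, ∀ g, rsum r.1 r.2 F g = 0 := fun r hr => by
    rcases h7 r hr with ⟨e, h⟩ | ⟨x, y, D, E, hx, h⟩
    · rw [e]; exact rel_triv hp hS.ext h
    · exact hS.rel _ _ (rel_of hA hn hp hf h3 rr hx h)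
  have h0 : val T F A = 0 := by
    clear h9
    induction h8 with
    | zero => exact val_zero
    | step L _ h ih => exact run_spec hT hR (Nat.eq_of_beq_eq_true h) ih
  rw [← final hT hp h9 h0]
  exact hS.ext _ _ fun i hi => (h6 i hi).symm

def sym (t a : ℕ) (F : (ℕ → ℕ) → V) (g : ℕ → ℕ) : V :=
  F g + a • F (lk t ∘ g) + (a * a) • F (lk t ∘ lk t ∘ g) + (a * a * a) • F (lk t ∘ lk t ∘ lk t ∘ g)

variable {F0 F : (ℕ → ℕ) → V} {t a : ℕ}

theorem Sub.sym (h : Sub F0 F) : Sub F0 (sym t a F) where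
  ext g g' e := by
    unfold Cert.sym
    rw [h.ext g g' e, h.ext (lk t ∘ g) (lk t ∘ g') fun i hi => by simp [e i hi],
      h.ext (lk t ∘ lk t ∘ g) (lk t ∘ lk t ∘ g') fun i hi => by simp [e i hi],
      h.ext (lk t ∘ lk t ∘ lk t ∘ g) (lk t ∘ lk t ∘ lk t ∘ g') fun i hi => by simp [e i hi]]
  rr b c hb g := by
    have := h.rr b c hb
    unfold Cert.sym
    rw [this g, this (lk t ∘ g), this (lk t ∘ lk t ∘ g), this (lk t ∘ lk t ∘ lk t ∘ g)]
    simp only [smul_add, smul_comm c]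
    rfl
  rel R l hR g := by
    have := h.rel R l hR
    have e : rsum R l (Cert.sym t a F) g = rsum R l F g + a • rsum R l F (lk t ∘ g) +
        (a * a) • rsum R l F (lk t ∘ lk t ∘ g) + (a * a * a) • rsum R l F (lk t ∘ lk t ∘ lk t ∘ g) := by
      simp only [rsum, Cert.sym, smul_add, sum_add_distrib, smul_sum, smul_comm (lk _ 10)]
      rfl
    simp [e, this]

theorem lr_sym (hp : ∀ v : V, 5 • v = 0) (h4 : ∀ i < 16, lk t (lk t (lk t (lk t i))) = i)
    (ha : a * (a * a * a) % 5 = 1 % 5) : LR (sym t a F) t a := by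
  intro g hg
  have e : lk t ∘ lk t ∘ lk t ∘ lk t ∘ g = g := funext fun i => h4 _ (hg i)
  unfold sym
  rw [e]
  simp only [smul_add, smul_smul]
  rw [smul_mod hp ha, one_smul, ← mul_assoc]; abel

theorem lr_sym' {s b : ℕ} (h : LR F s b) (hc : ∀ i < 16, lk s (lk t i) = lk t (lk s i)) :
    LR (sym t a F) s b := by
  intro g hg
  have e : ∀ g : ℕ → ℕ, (∀ i, g i < 16) → lk s ∘ lk t ∘ g = lk t ∘ lk s ∘ g :=
    fun g hg => funext fun i => hc _ (hg i)
  have l : ∀ g : ℕ → ℕ, ∀ i, (lk t ∘ g) i < 16 := fun g i => lk_lt _ _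
  unfold sym
  rw [h g hg, h _ (l g), h _ (l (lk t ∘ g)), h _ (l (lk t ∘ lk t ∘ g)), e _ (l (lk t ∘ g)), e _ (l g), e _ hg]
  simp only [smul_add, smul_comm b]

theorem sym_id (h : RR F t a) : sym t a F id = 4 • F id := by
  have h1 : F id = a • F (lk t ∘ id) := h id
  have h2 : F (lk t ∘ id) = a • F (lk t ∘ lk t ∘ id) := h _
  have h3 : F (lk t ∘ lk t ∘ id) = a • F (lk t ∘ lk t ∘ lk t ∘ id) := h _
  unfold sym
  simp only [mul_smul]
  rw [← h3, ← h2, ← h1]; abel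

instance (a : ℕ → ℕ) (σ : Perm (Fin n)) : Decidable (IsP a σ) := by unfold IsP; infer_instance

theorem toF_id {f : Perm (Fin n) → V} : toF f id = f 1 := toF_of fun _ => rfl

theorem fix_cons (hA : Act act) {L : List (Perm (Fin n))} (hL : ∀ x ∈ L, x ∈ alternatingGroup (Fin n))
    {s : Perm (Fin n)} (e : (L.all fun x => wB L s (x * s)) = true) {k : ℕ} (hs : ∀ v, itr (act s) (List.replicate k 1) v = 0)
    (h : ∃ v, v ≠ 0 ∧ Fix act L v) : ∃ v, v ≠ 0 ∧ Fix act (s :: L) v := by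
  obtain ⟨v, h0, hv⟩ := h
  obtain ⟨w, h1, h2, a, h3, h4⟩ := exists_eig (act s) _ (Fix.step hA hL e) _ hv h0 (hs v)
  rw [List.eq_of_mem_replicate h3, one_smul] at h4
  exact ⟨w, h2, fun x hx => by
    rcases List.mem_cons.1 hx with rfl | hx
    exacts [h4, h1 x hx]⟩

/-! ### The prime two -/

def s0 : Perm (Fin 9) := swap 0 1
def s1 : Perm (Fin 9) := swap 2 3
def s2 : Perm (Fin 9) := swap 4 5
def s3 : Perm (Fin 9) := swap 6 7
def sa : Perm (Fin 9) := swap 0 2 * swap 1 3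
def sb : Perm (Fin 9) := swap 4 6 * swap 5 7
def sc : Perm (Fin 9) := swap 0 4 * swap 1 5 * (swap 2 6 * swap 3 7)
theorem two_itr {act : Perm (Fin 9) → V →+ V} (hA : Act act) (hp : ∀ v : V, 2 • v = 0) {s : Perm (Fin 9)}
    (h : s ∈ alternatingGroup (Fin 9) ∧ s * s = 1) (v : V) : itr (act s) (List.replicate 2 1) v = 0 := by
  simp only [itr, List.replicate, List.foldl, one_smul, map_sub]
  rw [← hA.mull _ h.1, h.2, hA.one, ← hp (v - act s v)]; abel

theorem core2 {G : ℕ} (hC : CertOk 2 9 G 7 0 0)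
    (hG : (IsP (lk (ent 44 G 0)) s0 ∧ IsP (lk (ent 44 G 1)) s1 ∧ IsP (lk (ent 44 G 2)) s2 ∧
      IsP (lk (ent 44 G 3)) s3 ∧ IsP (lk (ent 44 G 4)) sa ∧ IsP (lk (ent 44 G 5)) sb ∧
      IsP (lk (ent 44 G 6)) sc) ∧ ∀ k < 7, lk (ent 44 G k) 10 = 1)
    {act : Perm (Fin 9) → V →+ V} (hA : Act act) (hp : ∀ v : V, 2 • v = 0) (v : V) : v = 0 := by
  by_contra h0
  have hL : ∀ x ∈ [sc, sb, sa, s3 * s0, s2 * s0, s1 * s0], x ∈ alternatingGroup (Fin 9) ∧ x * x = 1 :=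
    fun x hx => ⟨by revert x; simp [Perm.mem_alternatingGroup, s0, s1, s2, s3, sa, sb, sc],
      eqP_spec (List.all_eq_true.1 (by decide +kernel :
        ([sc, sb, sa, s3 * s0, s2 * s0, s1 * s0].all fun x => eqP (x * x) 1) = true) x hx)⟩
  have f0 : ∃ v, v ≠ 0 ∧ Fix act [] v := ⟨v, h0, fun _ h => by simp at h⟩
  have f1 := fix_cons hA (by simp) (s := s1 * s0) rfl (two_itr hA hp (hL _ (by simp))) f0
  have f2 := fix_cons hA (fun x hx => (hL x (by simp at hx ⊢; tauto)).1) (s := s2 * s0) (by decide +kernel)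
    (two_itr hA hp (hL _ (by simp))) f1
  have f3 := fix_cons hA (fun x hx => (hL x (by simp at hx ⊢; tauto)).1) (s := s3 * s0) (by decide +kernel)
    (two_itr hA hp (hL _ (by simp))) f2
  have f4 := fix_cons hA (fun x hx => (hL x (by simp at hx ⊢; tauto)).1) (s := sa) (by decide +kernel)
    (two_itr hA hp (hL _ (by simp))) f3
  have f5 := fix_cons hA (fun x hx => (hL x (by simp at hx ⊢; tauto)).1) (s := sb) (by decide +kernel)
    (two_itr hA hp (hL _ (by simp))) f4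
  obtain ⟨w, w0, hw⟩ := fix_cons hA (fun x hx => (hL x (by simp at hx ⊢; tauto)).1) (s := sc) (by decide +kernel)
    (two_itr hA hp (hL _ (by simp))) f5
  have fx : ∀ x ∈ [s0⁻¹ * sa * s0, s0⁻¹ * sb * s0, s0⁻¹ * sc * s0, s0 * s0, s0⁻¹ * s0, s0⁻¹ * s1, s0⁻¹ * s2,
      s0⁻¹ * s3], act x w = w ∧ x ∈ alternatingGroup (Fin 9) := fun x hx =>
    ⟨(hw.prod hA (fun x hx => (hL x hx).1) (s := 1)
      (by revert x; rw [← List.all_eq_true]; decide +kernel)).trans (hA.one w),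
      by revert x; simp [Perm.mem_alternatingGroup, s0, s1, s2, s3, sa, sb, sc]⟩
  have hτ : s0 ∉ alternatingGroup (Fin 9) := by simp [Perm.mem_alternatingGroup, s0]
  apply w0
  rw [← mkf_one (α := 1) (w := w) hA hτ, ← toF_id (f := mkf act s0 1 w)]
  refine cert_main hA (by norm_num) hC hp (mkf_left hA) ?_ ⟨ext_toF (by norm_num), fun _ _ h => h, fun _ _ h => h⟩
    (fun k hk => by omega)
  obtain ⟨⟨g0, g1, g2, g3, g4, g5, g6⟩, g7⟩ := hG
  intro k hk
  rw [g7 k hk]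
  have ev : ∀ β ∈ [sc, sb, sa], ∀ σ, mkf act s0 1 w σ = 1 • mkf act s0 1 w (σ * β) := fun β hβ =>
    gen_even hA (hL β (by simp at hβ ⊢; tauto)).1 (by rw [hw β (by simp at hβ ⊢; tauto), one_smul])
      (by rw [(fx _ (by simp at hβ; rcases hβ with rfl | rfl | rfl <;> simp)).1, one_smul])
  have od : ∀ β ∈ [s1, s2, s3], ∀ σ, mkf act s0 1 w σ = 1 • mkf act s0 1 w (σ * β) := fun β hβ => by
    have h1 : β * s0 ∈ [sc, sb, sa, s3 * s0, s2 * s0, s1 * s0] := by simp at hβ ⊢; tauto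
    have h2 := fx (s0⁻¹ * β) (by simp at hβ; rcases hβ with rfl | rfl | rfl <;> simp)
    exact gen_odd hA (hL _ h1).1 h2.2 (by rw [hw _ h1, mul_one, one_smul]) (by rw [h2.1])
  interval_cases k
  · exact rr_toF g0 (gen_odd hA (fx _ (by simp)).2 (fx _ (by simp)).2 (by rw [(fx _ (by simp)).1, mul_one, one_smul])
      (by rw [(fx _ (by simp)).1]))
  · exact rr_toF g1 (od _ (by simp))
  · exact rr_toF g2 (od _ (by simp))
  · exact rr_toF g3 (od _ (by simp))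
  · exact rr_toF g4 (ev _ (by simp))
  · exact rr_toF g5 (ev _ (by simp))
  · exact rr_toF g6 (ev _ (by simp))

/-! ### The prime five -/

def u1 : Perm (Fin 10) := swap 0 1 * swap 1 2 * swap 2 3 * swap 3 4
def t1 : Perm (Fin 10) := swap 1 2 * swap 2 4 * swap 4 3
def u2 : Perm (Fin 10) := swap 5 6 * swap 6 7 * swap 7 8 * swap 8 9
def t2 : Perm (Fin 10) := swap 6 7 * swap 7 9 * swap 9 8

def Side (α β G H : ℕ) : Prop :=
  (IsP (lk (ent 44 G 0)) u1 ∧ IsP (lk (ent 44 G 1)) t1 ∧ IsP (lk (ent 44 G 2)) u2 ∧ IsP (lk (ent 44 G 3)) t2) ∧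
  (lk (ent 44 G 0) 10 = 1 ∧ lk (ent 44 G 1) 10 = α ∧ lk (ent 44 G 2) 10 = 1 ∧ lk (ent 44 G 3) 10 = β) ∧
  (IsP (lk (ent 68 H 0)) t1 ∧ IsP (lk (ent 68 H 1)) t2 ∧ lk (ent 68 H 0) 16 = α ∧ lk (ent 68 H 1) 16 = β) ∧
  (∀ k < 2, ∀ i < 16, lk (ent 68 H k) (lk (ent 68 H k) (lk (ent 68 H k) (lk (ent 68 H k) i))) = i) ∧
  (∀ i < 16, lk (ent 68 H 0) (lk (ent 68 H 1) i) = lk (ent 68 H 1) (lk (ent 68 H 0) i)) ∧
  α * (α * α * α) % 5 = 1 % 5 ∧ β * (β * β * β) % 5 = 1 % 5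

instance (α β G H : ℕ) : Decidable (Side α β G H) := by unfold Side; infer_instance

def C5 (α β : ℕ) : Prop := ∃ G H, Side α β G H ∧ CertOk 5 10 G 4 H 2

theorem ev5 : ∀ x ∈ [u1, u2, t1 * t1, t2 * t1, t1⁻¹ * t1, t1⁻¹ * t2], x ∈ alternatingGroup (Fin 10) := by
  simp [Perm.mem_alternatingGroup, u1, u2, t1, t2]

theorem core5a {α β γ ε : ℕ} (hC : C5 α β) {act : Perm (Fin 10) → V →+ V} (hA : Act act)
    (hp : ∀ v : V, 5 • v = 0) {w : V} (hw : Fix act [u2, u1] w) (h1 : act (t2 * t1) w = γ • w)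
    (h2 : act (t1 * t1) w = ε • w)
    (e : 1 % 5 = α * α * ε % 5 ∧ 1 % 5 = β * α * γ % 5 ∧ α % 5 = β * (γ * ε) % 5) : w = 0 := by
  obtain ⟨G, H, ⟨⟨g0, g1, g2, g3⟩, ⟨c0, c1, c2, c3⟩, ⟨k0, k1, d0, d1⟩, q4, qc, qa, qb⟩, hC⟩ := hC
  have hL : ∀ x ∈ [u2, u1], x ∈ alternatingGroup (Fin 10) := fun x hx => ev5 x (by simp at hx ⊢; tauto)
  have fx : ∀ x ∈ [t1⁻¹ * u1 * t1, t1⁻¹ * u2 * t1], act x w = w := fun x hx =>
    (hw.prod hA hL (s := 1) (by revert x; rw [← List.all_eq_true]; decide +kernel)).trans (hA.one w)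
  have hτ : t1 ∉ alternatingGroup (Fin 10) := by simp [Perm.mem_alternatingGroup, t1]
  have r1 : ∀ σ, mkf act t1 α w σ = α • mkf act t1 α w (σ * t1) :=
    gen_odd hA (ev5 _ (by simp)) (ev5 _ (by simp)) (by rw [h2, smul_smul, ← smul_mod hp e.1, one_smul])
      (by rw [inv_mul_cancel, hA.one])
  have r2 : ∀ σ, mkf act t1 α w σ = β • mkf act t1 α w (σ * t2) :=
    gen_odd hA (ev5 _ (by simp)) (ev5 _ (by simp)) (by rw [h1, smul_smul, ← smul_mod hp e.2.1, one_smul])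
      (by rw [show t1⁻¹ * t2 = t1 * t1 * (t2 * t1) from eqP_spec (by decide +kernel), hA.mulr _ _ (ev5 _ (by simp)), h1,
        map_nsmul, h2, smul_smul γ, smul_smul, smul_mod hp e.2.2])
  have hS0 : Sub (toF (mkf act t1 α w)) (toF (mkf act t1 α w)) :=
    ⟨ext_toF le_rfl, fun _ _ h => h, fun _ _ h => h⟩
  have hS1 := hS0.sym (t := ent 68 H 0) (a := α)
  have := cert_main hA le_rfl hC hp (mkf_left hA) (fun k hk => by
      interval_cases k
      · rw [c0]; exact rr_toF g0 (gen_even hA (ev5 _ (by simp)) (by rw [hw _ (by simp), one_smul])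
          (by rw [fx _ (by simp), one_smul]))
      · rw [c1]; exact rr_toF g1 r1
      · rw [c2]; exact rr_toF g2 (gen_even hA (ev5 _ (by simp)) (by rw [hw _ (by simp), one_smul])
          (by rw [fx _ (by simp), one_smul]))
      · rw [c3]; exact rr_toF g3 r2)
    (hS1.sym (t := ent 68 H 1) (a := β)) (fun k hk => by
      interval_cases k
      · rw [d0]; exact lr_sym' (lr_sym hp (q4 0 (by norm_num)) qa) qc
      · rw [d1]; exact lr_sym hp (q4 1 (by norm_num)) qb)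
  rw [sym_id (hS1.rr _ _ (rr_toF k1 r2)), sym_id (rr_toF k0 r1), toF_id, mkf_one hA hτ, smul_smul,
    smul_mod hp (show 4 * 4 % 5 = 1 % 5 by norm_num), one_smul] at this
  exact this

theorem core5 (hC : ∀ α ∈ [1, 2], ∀ β ∈ [1, 2, 3, 4], C5 α β) {act : Perm (Fin 10) → V →+ V} (hA : Act act)
    (hp : ∀ v : V, 5 • v = 0) (v : V) : v = 0 := by
  by_contra h0
  have five : ∀ s ∈ alternatingGroup (Fin 10), s * (s * (s * (s * s))) = 1 →
      ∀ v, itr (act s) (List.replicate 5 1) v = 0 := fun s hs e v => by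
    have : act s (act s (act s (act s (act s v)))) = v := by
      simp only [← hA.mull _ hs]; rw [e, hA.one]
    simp only [itr, List.replicate, List.foldl, one_smul, map_sub]
    rw [this, ← hp (act s v - 2 • act s (act s v) + 2 • act s (act s (act s v)) - act s (act s (act s (act s v))))]
    abel
  have f0 : ∃ v, v ≠ 0 ∧ Fix act [] v := ⟨v, h0, fun _ h => by simp at h⟩
  have f1 := fix_cons hA (by simp) (s := u1) rfl (five _ (ev5 _ (by simp)) (eqP_spec (by decide +kernel))) f0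
  obtain ⟨w, w0, hw⟩ := fix_cons hA (fun x hx => ev5 x (by simp at hx ⊢; tauto)) (s := u2) (by decide +kernel)
    (five _ (ev5 _ (by simp)) (eqP_spec (by decide +kernel))) f1
  have hL : ∀ x ∈ [u2, u1], x ∈ alternatingGroup (Fin 10) := fun x hx => ev5 x (by simp at hx ⊢; tauto)
  have m1 : t2 * t1 ∈ alternatingGroup (Fin 10) := ev5 _ (by simp)
  have m2 : t1 * t1 ∈ alternatingGroup (Fin 10) := ev5 _ (by simp)
  obtain ⟨w, hw, w0, γ, hγ, h1⟩ := exists_eig (act (t2 * t1)) _ (Fix.step hA hL (by decide +kernel)) [1, 2, 3, 4]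
    hw w0 (by
      set s := t2 * t1
      have : act s (act s (act s (act s w))) = w := by
        simp only [← hA.mull _ m1]; rw [show s * (s * (s * s)) = 1 from eqP_spec (by decide +kernel), hA.one]
      simp only [itr, List.foldl, map_sub, map_nsmul]
      rw [this, ← hp (5 • w - 10 • act s w + 7 • act s (act s w) - 2 • act s (act s (act s w)))]
      abel)
  obtain ⟨w, ⟨hw, h1⟩, w0, ε, hε, h2⟩ := exists_eig (act (t1 * t1))
    (fun v => Fix act [u2, u1] v ∧ act (t2 * t1) v = γ • v)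
    (fun v hv a => ⟨Fix.step hA hL (by decide +kernel) v hv.1 a, by
      rw [map_sub, map_nsmul, ← hA.mull _ m1, show t2 * t1 * (t1 * t1) = t1 * t1 * (t2 * t1) from eqP_spec (by decide +kernel),
        hA.mull _ m2, hv.2, map_nsmul, smul_sub, smul_comm a]⟩) [1, 4] ⟨hw, h1⟩ w0 (by
      set s := t1 * t1
      have : act s (act s w) = w := by
        rw [← hA.mull _ m2, show s * s = 1 from eqP_spec (by decide +kernel), hA.one]
      simp only [itr, List.foldl, map_sub, map_nsmul]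
      rw [this, ← hp (w - act s w)]
      abel)
  apply w0
  obtain ⟨α, hα, β, hβ, e⟩ : ∃ α ∈ [1, 2], ∃ β ∈ [1, 2, 3, 4],
      1 % 5 = α * α * ε % 5 ∧ 1 % 5 = β * α * γ % 5 ∧ α % 5 = β * (γ * ε) % 5 := by
    simp only [List.mem_cons, List.not_mem_nil, or_false] at hγ hε
    rcases hγ with rfl | rfl | rfl | rfl <;> rcases hε with rfl | rfl <;> decide
  exact core5a (hC α hα β hβ) hA hp hw h1 h2 e

end Cfsg.Agent.Cert
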