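import Cfsg.Agent.L.CertD2
import Cfsg.Agent.L.CertD511
import Cfsg.Agent.L.CertD512
import Cfsg.Agent.L.CertD513
import Cfsg.Agent.L.CertD514
import Cfsg.Agent.L.CertD521
import Cfsg.Agent.L.CertD522
import Cfsg.Agent.L.CertD523
import Cfsg.Agent.L.CertD524
import Cfsg.Agent.L.MinNormal
import Cfsg.Agent.H1.Coprime

/-! Non-central `p`-elements with non-solvable centralizers above large alternating groups. -/
set_option autoImplicit false

namespace Cfsg.Agent.Cert
open Equiv Subgroup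
open scoped commutatorElement
universe u v

/-- every non-trivial module in characteristic `p` has a vector with non-solvable stabilizer -/
def ModFix (p : ℕ) (A : Type v) [Group A] : Prop :=
  ∀ (U : Type u) [CommGroup U] [Nontrivial U] (ρ : A →* MulAut U), (∀ x : U, x ^ p = 1) →
    ∃ x : U, x ≠ 1 ∧ ∃ a b : A, ¬ Group.IsSolvable (closure ({a, b} : Set A)) ∧ ρ a x = x ∧ ρ b x = x

theorem solv_inj {G H : Type*} [Group G] [Group H] {φ : G →* H} (hφ : Function.Injective φ) {K : Subgroup G}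
    (h : Group.IsSolvable (K.map φ)) : Group.IsSolvable K :=
  Group.isSolvable_of_surjective (f := (K.equivMapOfInjective φ hφ).symm.toMonoidHom) (MulEquiv.surjective _)

theorem solv_le {G : Type*} [Group G] {K L : Subgroup G} (h : K ≤ L) (hL : Group.IsSolvable L) :
    Group.IsSolvable K := Group.isSolvable_of_isSolvable_injective (inclusion_injective h)

theorem solv_img {G H : Type*} [Group G] [Group H] (φ : G →* H) {K : Subgroup G}
    (h : Group.IsSolvable K) : Group.IsSolvable (K.map φ) :=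
  Group.isSolvable_of_surjective (φ.subgroupMap_surjective _)

theorem exists_emb {α β : Type*} [Fintype α] [Fintype β] [DecidableEq α] [DecidableEq β] (e : α ↪ β) :
    ∃ ι : Perm α →* Perm β, Function.Injective ι ∧ ∀ σ, Perm.sign (ι σ) = Perm.sign σ :=
  ⟨Perm.extendDomainHom e.toEquivRange, Perm.extendDomainHom_injective _, fun σ => Perm.sign_extendDomain σ _⟩

theorem modFix {p n d : ℕ} (hd : n ≤ d)
    (core : ∀ {V : Type u} [AddCommGroup V] {act : Perm (Fin n) → V →+ V}, Act act → (∀ v : V, p • v = 0) →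
      ∀ v : V, v = 0) : ModFix.{u} p (alternatingGroup (Fin d)) := by
  classical
  intro U _ _ ρ hp
  by_contra! H
  obtain ⟨ι, hi, hs⟩ := exists_emb (Fin.castLEEmb hd)
  have hι : ∀ σ ∈ alternatingGroup (Fin n), ι σ ∈ alternatingGroup (Fin d) := fun σ h => by
    rw [Perm.mem_alternatingGroup] at h ⊢
    rw [← h, hs]
  let j : alternatingGroup (Fin n) →* alternatingGroup (Fin d) :=
    (ι.comp (alternatingGroup (Fin n)).subtype).codRestrict _ fun x => hι _ x.2
  let act : Perm (Fin n) → Additive U →+ Additive U := fun σ =>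
    if h : σ ∈ alternatingGroup (Fin n) then MonoidHom.toAdditive (ρ (j ⟨σ, h⟩)).toMonoidHom else 0
  have a1 : ∀ σ (h : σ ∈ alternatingGroup (Fin n)) v, act σ v = Additive.ofMul (ρ (j ⟨σ, h⟩) v.toMul) :=
    fun σ h v => by simp only [act, dif_pos h]; rfl
  have a0 : ∀ σ ∉ alternatingGroup (Fin n), ∀ v, act σ v = 0 := fun σ h v => by simp only [act, dif_neg h]; rfl
  have mm : ∀ σ ∈ alternatingGroup (Fin n), ∀ β ∈ alternatingGroup (Fin n), ∀ v,
      act (σ * β) v = act σ (act β v) := fun σ h β h' v => by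
    rw [a1 _ (mul_mem h h'), a1 _ h, a1 _ h', toMul_ofMul, ← MulAut.mul_apply, ← map_mul, ← map_mul]; rfl
  obtain ⟨x, hx⟩ := exists_ne (1 : U)
  refine hx (core (act := act) ⟨fun v => ?_, fun σ β h v => ?_, fun β h σ v => ?_, a0, ?_⟩
    (fun v => hp v.toMul) (Additive.ofMul x))
  · rw [a1 _ (one_mem _), show (⟨1, one_mem _⟩ : alternatingGroup (Fin n)) = 1 from rfl]; simp
  · by_cases h' : σ ∈ alternatingGroup (Fin n)
    · exact mm _ h' _ h v
    · rw [a0 _ h', a0 _ fun e => h' ((mul_mem_cancel_right h).1 e)]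
  · by_cases h' : σ ∈ alternatingGroup (Fin n)
    · exact mm _ h _ h' v
    · rw [a0 _ h', a0 _ fun e => h' ((mul_mem_cancel_left h).1 e), map_zero]
  · intro ξ h1 η h2 ns v e1 e2
    rw [a1 _ h1] at e1
    rw [a1 _ h2] at e2
    by_contra h0
    refine H v.toMul h0 (j ⟨ξ, h1⟩) (j ⟨η, h2⟩) (fun hs => ns ?_) e1 e2
    apply solv_inj hi
    rw [MonoidHom.map_closure, Set.image_pair]
    exact solv_map (alternatingGroup (Fin d)).subtype (x := j ⟨ξ, h1⟩) (y := j ⟨η, h2⟩) hs

theorem modFix2 {d : ℕ} (hd : 9 ≤ d) : ModFix.{u} 2 (alternatingGroup (Fin d)) :=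
  modFix hd fun h1 h2 => D2.core h1 h2

theorem modFix5 {d : ℕ} (hd : 10 ≤ d) : ModFix.{u} 5 (alternatingGroup (Fin d)) :=
  modFix hd fun h1 h2 => core5 (by
    simp only [List.forall_mem_cons]
    exact ⟨⟨D511.c5, D512.c5, D513.c5, D514.c5, fun _ h => nomatch h⟩,
      ⟨D521.c5, D522.c5, D523.c5, D524.c5, fun _ h => nomatch h⟩, fun _ h => nomatch h⟩) h1 h2

def Bad (p : ℕ) (H : Type*) [Group H] : Prop := ∃ y : H, y ∉ center H ∧ (∃ k, y ^ p ^ k = 1) ∧
  ¬ Group.IsSolvable (centralizer ({y} : Set H))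

theorem Bad.of_inj {p : ℕ} {G H : Type*} [Group G] [Group H] {φ : G →* H} (hφ : Function.Injective φ)
    (h : Bad p G) : Bad p H := by
  obtain ⟨y, h1, ⟨k, h2⟩, h3⟩ := h
  refine ⟨φ y, fun e => h1 (mem_center_iff.2 fun g => hφ ?_), ⟨k, by rw [← map_pow, h2, map_one]⟩,
    fun e => h3 (solv_inj hφ (solv_le ?_ e))⟩
  · rw [map_mul, map_mul, mem_center_iff.1 e]
  · rintro _ ⟨g, hg, rfl⟩
    rw [mem_centralizer_singleton_iff, ← map_mul, mem_centralizer_singleton_iff.1 hg, map_mul]

theorem Bad.of_surj {p : ℕ} (hp : p.Prime) {G H : Type*} [Group G] [Finite G] [Group H] {φ : G →* H}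
    (hφ : Function.Surjective φ) (hc : (Nat.card φ.ker).Coprime p) (h : Bad p H) : Bad p G := by
  haveI := Fact.mk hp
  obtain ⟨y, h1, ⟨k, h2⟩, h3⟩ := h
  obtain ⟨P⟩ : Nonempty (Sylow p (comap φ (zpowers y))) := inferInstance
  haveI : Finite H := .of_surjective _ hφ
  have hy : IsPGroup p (zpowers y) := by
    rintro ⟨_, m, rfl⟩
    exact ⟨k, Subtype.ext (by
      show (y ^ m) ^ p ^ k = 1
      rw [← zpow_natCast, ← zpow_mul, mul_comm, zpow_mul, zpow_natCast, h2, one_zpow])⟩
  let ψ := φ.subgroupComap (zpowers y)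
  have hψ : Function.Surjective ψ := φ.subgroupComap_surjective_of_surjective _ hφ
  have ht : ((P.mapSurjective hψ : Sylow p _) : Subgroup (zpowers y)) = ⊤ :=
    ((P.mapSurjective hψ).is_maximal' (IsPGroup.to_subgroup hy ⊤) le_top).symm
  obtain ⟨z, hz, e⟩ : (⟨y, mem_zpowers y⟩ : zpowers y) ∈ (P : Subgroup _).map ψ := by
    rw [← Sylow.coe_mapSurjective hψ, ht]; trivial
  have e' : φ z = y := congrArg Subtype.val e
  obtain ⟨m, hm⟩ := P.isPGroup' ⟨z, hz⟩
  have hm' : (z : G) ^ p ^ m = 1 := congrArg Subtype.val (congrArg Subtype.val hm)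
  generalize (z : G) = z at e' hm'
  refine ⟨z, fun h => h1 (mem_center_iff.2 fun g => ?_), ⟨m, hm'⟩, fun h => h3 ?_⟩
  · obtain ⟨g, rfl⟩ := hφ g
    rw [← e', ← map_mul, mem_center_iff.1 h, map_mul]
  · have := H1.centralizer_map_of_coprime_ker hφ (A := zpowers z) (by
      rw [Nat.card_zpowers]
      exact ((hc.pow_right m).coprime_dvd_right (orderOf_dvd_of_pow_eq_one hm')).symm)
      (Or.inl inferInstance)
    rw [MonoidHom.map_zpowers, e', zpowers_eq_closure, zpowers_eq_closure, centralizer_closure,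
      centralizer_closure] at this
    rw [this]; exact solv_img _ h

theorem bad_of_comm {p : ℕ} {H : Type*} [Group H] {y : H} (h1 : y ∉ center H) (h2 : ∃ k, y ^ p ^ k = 1)
    {X : Subgroup H} (hX : ¬ Group.IsSolvable X) (h : ∀ g ∈ X, g * y * g⁻¹ * y⁻¹ ∈ center H) : Bad p H := by
  refine ⟨y, h1, h2, fun hs => hX ?_⟩
  let f : X →* center H := MonoidHom.mk' (fun g => ⟨_, h g g.2⟩) fun a b => Subtype.ext (by
    have := mem_center_iff.1 (h b b.2) a
    simp only [coe_mul, MulMemClass.mk_mul_mk]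
    rw [mem_center_iff.1 (h b b.2), ← mul_assoc, ← mul_assoc, ← mul_assoc, ← this]; group)
  haveI : Group.IsSolvable f.ker := by
    refine solv_inj X.subtype_injective (solv_le ?_ hs)
    rintro _ ⟨g, hg, rfl⟩
    have : (g : H) * y * (g : H)⁻¹ * y⁻¹ = 1 := congrArg Subtype.val hg
    rw [mem_centralizer_singleton_iff]
    rwa [mul_inv_eq_one, mul_inv_eq_iff_eq_mul] at this
  haveI : Group.IsSolvable (center H) := Group.isSolvable_of_comm fun a b =>
    Subtype.ext (mem_center_iff.1 b.2 a)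
  exact Group.isSolvable_of_ker_le_range f.ker.subtype f (range_subtype _).ge

theorem bad_pker {p : ℕ} (hp : p.Prime) {A : Type v} [Group A] (hZ : center A = ⊥) {x : A}
    (hx : orderOf x = p) {X : Subgroup A} (hX : ¬ Group.IsSolvable X) (hc : ∀ g ∈ X, g * x = x * g)
    (hM : (Nat.card X).Coprime p ∨ ModFix.{u} p A) {H : Type u} [Group H] [Finite H] {φ : H →* A}
    (hφ : Function.Surjective φ) (hN : IsPGroup p φ.ker) : Bad p H := by
  haveI := Fact.mk hp
  haveI : Finite A := .of_surjective _ hφ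
  have hR : IsPGroup p (comap φ (zpowers x)) :=
    (IsPGroup.of_card (n := 1) (by rw [Nat.card_zpowers, hx, pow_one])).comap_of_ker_isPGroup φ hN
  have nc : ∀ y, φ y = x → y ∉ center H ∧ ∃ k, y ^ p ^ k = 1 := fun y e => by
    refine ⟨fun h => hp.one_lt.ne' ?_, ?_⟩
    · rw [← hx, orderOf_eq_one_iff, ← mem_bot, ← hZ, mem_center_iff]
      intro g
      obtain ⟨g, rfl⟩ := hφ g
      rw [← e, ← map_mul, mem_center_iff.1 h, map_mul]
    · obtain ⟨k, hk⟩ := hR ⟨y, by simp [e]⟩
      exact ⟨k, congrArg Subtype.val hk⟩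
  have hY : ¬ Group.IsSolvable (comap φ X) := fun h => hX (by
    rw [← map_comap_eq_self_of_surjective hφ X]; exact solv_img _ h)
  rcases hM with hM | hM
  · have hi : φ.ker.relIndex (comap φ X) = Nat.card X := by
      rw [relIndex_ker, map_comap_eq_self_of_surjective hφ]
    obtain ⟨n, hn⟩ := hN.exists_card_eq
    obtain ⟨L, -, l1, -, l3⟩ := H1.exists_complement_of_coprime (N := φ.ker) (S := comap φ X)
      (ker_le_comap _ _) le_normalizer_of_normal (by rw [hi, hn]; exact (hM.pow_right n).symm)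
    have hL : L.map φ = X := by
      rw [← map_comap_eq_self_of_surjective hφ X, ← l1, Subgroup.map_sup, (Subgroup.map_eq_bot_iff _).2 le_rfl, sup_bot_eq]
    obtain ⟨m, hm⟩ := hR.exists_card_eq
    have := H1.map_inf_centralizer_map φ (A := L) (G := comap φ (zpowers x)) (fun g hg => by
      have hg' : φ g ∈ X := hL ▸ mem_map_of_mem φ hg
      apply le_normalizer_comap
      exact centralizer_le_normalizer _ (by
        rw [zpowers_eq_closure, centralizer_closure, mem_centralizer_singleton_iff]; exact hc _ hg'))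
      (by rw [l3, hi, hm]; exact hM.pow_right m) (Or.inr (haveI := hR.isNilpotent; inferInstance))
    obtain ⟨y, hy, e⟩ : x ∈ (comap φ (zpowers x) ⊓ centralizer (L : Set H)).map φ := by
      rw [← this, map_comap_eq_self_of_surjective hφ, hL]
      exact ⟨mem_zpowers x, fun g hg => hc g hg⟩
    refine ⟨y, (nc y e).1, (nc y e).2, fun h => hX (hL ▸ solv_img _ (solv_le (fun g hg => ?_) h))⟩
    exact mem_centralizer_singleton_iff.2 (hy.2 g hg)
  by_cases hc' : φ.ker ≤ center H
  · obtain ⟨y, e⟩ := hφ x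
    refine bad_of_comm (nc y e).1 (nc y e).2 hY fun g hg => hc' ?_
    simp [MonoidHom.mem_ker, e, hc _ hg]
  obtain ⟨W, ⟨hn, hW, hWc⟩, hmin⟩ := WellFounded.has_min (wellFounded_lt (α := Subgroup H))
    {W | W.Normal ∧ W ≤ φ.ker ∧ ¬ W ≤ center H} ⟨φ.ker, inferInstance, le_rfl, hc'⟩
  have hWN : ⁅W, φ.ker⁆ ≤ center H := by
    by_contra h
    haveI := hN.isNilpotent
    have hlt := L.commutator_lt_of_isNilpotent hW le_normalizer_of_normal (by rintro rfl; exact hWc bot_le)
    exact hmin _ ⟨inferInstance, hlt.le.trans hW, h⟩ hlt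
  let π := QuotientGroup.mk' (center H)
  have hπ : ∀ g, π g = 1 ↔ g ∈ center H := fun g => QuotientGroup.eq_one_iff g
  haveI : (W.map π).Normal := hn.map _ (QuotientGroup.mk'_surjective _)
  have cm : ∀ w ∈ W, ∀ g ∈ φ.ker, π w * π g = π g * π w := fun w hw g hg => by
    rw [← commutatorElement_eq_one_iff_mul_comm, ← map_commutatorElement, hπ]
    exact hWN (commutator_mem_commutator hw hg)
  letI : CommGroup (W.map π) := { (inferInstance : Group (W.map π)) with
    mul_comm := by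
      rintro ⟨_, a, ha, rfl⟩ ⟨_, b, hb, rfl⟩
      exact Subtype.ext (cm a ha b (hW hb)) }
  let U : Subgroup (W.map π) := (powMonoidHom p).ker
  haveI : U.Characteristic := characteristic_iff_le_comap.2 fun f a ha => by
    have : a ^ p = 1 := ha
    show f a ^ p = 1
    rw [← map_pow, this, map_one]
  have hWp : IsPGroup p (W.map π) := (hN.to_le hW).map π
  haveI : Nontrivial U := by
    haveI : Nontrivial (W.map π) := (nontrivial_iff_ne_bot _).2 fun e => hWc (by
      rwa [Subgroup.map_eq_bot_iff, QuotientGroup.ker_mk'] at e)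
    obtain ⟨n, hn0, hn⟩ := hWp.nontrivial_iff_card.1 inferInstance
    obtain ⟨a, ha⟩ := exists_prime_orderOf_dvd_card' (G := W.map π) p (hn ▸ dvd_pow_self p hn0.ne')
    refine ⟨⟨⟨a, (ha ▸ pow_orderOf_eq_one a : a ^ p = 1)⟩, 1, fun e => hp.one_lt.ne' ?_⟩⟩
    rw [← ha, orderOf_eq_one_iff]; exact congrArg Subtype.val e
  let θ : H →* MulAut U := (MulAut.characteristic U).comp (MulAut.conjNormal.comp π)
  have hθ : ∀ g (a : U), ((θ g a).1.1 : H ⧸ center H) = π g * a.1.1 * (π g)⁻¹ := fun g a => rfl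
  have hk : φ.ker ≤ θ.ker := fun g hg => by
    ext ⟨⟨_, a, ha, rfl⟩, h⟩
    rw [hθ, ← cm a ha g hg]; simp
  obtain ⟨⟨⟨_, w, hw, rfl⟩, hw'⟩, w1, a, b, ns, e1, e2⟩ := hM U (φ.liftOfSurjective hφ ⟨θ, hk⟩)
    (fun x => Subtype.ext x.2)
  obtain ⟨a, rfl⟩ := hφ a
  obtain ⟨b, rfl⟩ := hφ b
  rw [MonoidHom.liftOfRightInverse_comp_apply] at e1 e2
  obtain ⟨k, hk⟩ := hN ⟨w, hW hw⟩
  refine bad_of_comm (y := w) (fun h => w1 (Subtype.ext (Subtype.ext ((hπ w).2 h))))
    ⟨k, congrArg Subtype.val hk⟩ (X := closure {a, b}) (fun h => ns (solv_map φ h)) fun g hg => ?_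
  have : closure {a, b} ≤ comap π (centralizer {π w}) := by
    rw [closure_le]
    rintro g (rfl | rfl)
    · have := hθ g ⟨⟨π w, w, hw, rfl⟩, hw'⟩
      erw [e1] at this
      exact mem_centralizer_singleton_iff.2 (eq_mul_inv_iff_mul_eq.1 this).symm
    · have := hθ g ⟨⟨π w, w, hw, rfl⟩, hw'⟩
      erw [e2] at this
      exact mem_centralizer_singleton_iff.2 (eq_mul_inv_iff_mul_eq.1 this).symm
  rw [← hπ]
  simp [mem_centralizer_singleton_iff.1 (this hg)]

theorem bad_main {p : ℕ} (hp : p.Prime) {A : Type v} [Group A] (hZ : center A = ⊥) {x : A}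
    (hx : orderOf x = p) {X : Subgroup A} (hX : ¬ Group.IsSolvable X) (hc : ∀ g ∈ X, g * x = x * g)
    (hM : (Nat.card X).Coprime p ∨ ModFix.{u} p A) (n : ℕ) : ∀ (H : Type u) [Group H] [Finite H] (φ : H →* A),
      Nat.card H = n → Function.Surjective φ → Bad p H := by
  induction n using Nat.strong_induction_on with
  | _ n ih =>
  intro H _ _ φ hn hφ
  by_cases hN : IsPGroup p φ.ker
  · exact bad_pker hp hZ hx hX hc hM hφ hN
  haveI := Fact.mk hp
  obtain ⟨q, hq, hqd, hqp⟩ : ∃ q : ℕ, q.Prime ∧ q ∣ Nat.card φ.ker ∧ q ≠ p := by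
    by_contra! h
    exact hN (IsPGroup.of_card (Nat.eq_prime_pow_of_unique_prime_dvd Nat.card_pos.ne' fun {d} h1 h2 => h d h1 h2))
  haveI := Fact.mk hq
  obtain ⟨Q⟩ : Nonempty (Sylow q φ.ker) := inferInstance
  set M := (Q : Subgroup φ.ker).map φ.ker.subtype
  have hF := Q.normalizer_sup_eq_top
  by_cases ht : normalizer (M : Set H) = ⊤
  · haveI : M.Normal := normalizer_eq_top_iff.1 ht
    have hM1 : M ≠ ⊥ := fun e => Q.ne_bot_of_dvd_card hqd ((map_eq_bot_iff_of_injective _ φ.ker.subtype_injective).1 e)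
    have hMN : M ≤ φ.ker := map_subtype_le _
    refine Bad.of_surj hp (QuotientGroup.mk'_surjective M) ?_ (ih _ ?_ _ (QuotientGroup.lift M φ hMN) rfl ?_)
    · obtain ⟨k, hk⟩ := (Q.isPGroup'.map φ.ker.subtype).exists_card_eq
      rw [QuotientGroup.ker_mk', hk]
      exact ((Nat.coprime_primes hq hp).2 hqp).pow_left k
    · rw [← hn, ← M.index_mul_card]
      exact lt_mul_of_one_lt_right (Nat.pos_of_ne_zero M.index_ne_zero_of_finite) (M.one_lt_card_iff_ne_bot.2 hM1)
    · exact fun a => (hφ a).elim fun g hg => ⟨g, hg⟩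
  · refine Bad.of_inj (subtype_injective (normalizer (M : Set H))) (ih _ ?_ _ (φ.comp (Subgroup.subtype _)) rfl ?_)
    · rw [← hn]
      exact lt_of_le_of_ne (card_le_card_group _) fun e => ht (eq_top_of_card_eq _ e)
    · rw [← MonoidHom.range_eq_top, MonoidHom.range_comp, range_subtype, ← sup_bot_eq (map _ _),
        ← (Subgroup.map_eq_bot_iff φ.ker).2 le_rfl, ← Subgroup.map_sup, hF, ← MonoidHom.range_eq_map,
        MonoidHom.range_eq_top.2 hφ]

end Cfsg.Agent.Cert
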